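import Cfsg.Agent.H7.Mult3
import Cfsg.Agent.H7.Cls
import Cfsg.Agent.H7.Xs.K21
import Cfsg.Agent.H7.Mu.Math

set_option autoImplicit false
set_option maxRecDepth 100000

universe u

open scoped Pointwise

namespace CfsgH7.M24.Xk

open CfsgH7.M24

def kV : List (List Nat) := [[1,3,8,6,4,6,8,3,0,4,3],[6,0,3,3,6,1,4,6,4],[0,4,6,1,4,8,4,0,8,6,1]]
def kz : List Nat := [8,0,2,8,0,2,8,0,2]
theorem ks_0 : lall (fun w => fixesP l w bs) (K21.Rf.map (substW kV)) = true := by decide +kernel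
theorem ks : lall (fun w => fixesP l w bs) (K21.Rf.map (substW kV)) = true :=
  ks_0
variable {G : Type u} [Group G] {Ω : Type*} [MulAction G Ω] {pt : Nat → Ω} {g : Nat → G} (M : Md pt 24 g l 5 244823040 bs)
include M

def kaC : List Lvl := [⟨20, [[0],[6],[2],[4],[8]], [0,1,0,2,0,1,0,3,4], 24⟩,
  ⟨11, [[4],[8],[1,2]], [0,1,2,2,0,1,0,1,2], 23⟩,
  ⟨21, [[2,6,3],[0,2,8,2,6],[8,4,8]], [0,1,0,2,1,0,2,0,1,0,2,1], 22⟩,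
  ⟨4, [[6,8,6],[0,0,8,0,8,0],[0,8,2,0,4,6]], [0,2,1,0,2,0,2,1], 21⟩,
  ⟨14, [[1,2,8,1,1,6,3],[1,3,8,6,0,8,6],[3,6,2,0,8,2,6],[4,0,2,8,3,1,4]], [0,1,2,0,1,3], 20⟩,
  ⟨13, [[0,4,2,8,6,3,1,8,3,4]], [0,0], 3⟩,
  ⟨0, [[1,8,3,8,2,8,0],[1,8,6,4,8,4,6,8,0],[4,6,2,8,4,8,3,6,4],[4,2,8,0,2,6,8,3,4,1,3,4,6,1,4,0,8,6,4,2,4,2,8,0,2,6,8,3,4,1]], [0,1,2,3], 16⟩]
def kaM : List (List Nat) := [[],
  [0xeff7ff],
  [],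
  [0xcff7ef],
  [],
  [0xce97ed],
  []]
def kaZ : List Nat := [0xffffff]
theorem kaL : LvOk G pt 24 [] (mkLV kaC kaM) := M.lvOk kaC 5 kaM (by decide +kernel) (by decide +kernel)
noncomputable def kaT : Bt := (.br 0 [[0],[4]] [1,0,1,0,1,0,0] (Bt.ofL [(20, [], (.step 0 0 [] (.br 0 [[0],[2]] [0,1,0,0,1] (Bt.ofL [(21, [], (.step 0 0 [] (.br 0 [[2,1,2,0],[0,2,0,0,0]] [0,1,0,0,1] (Bt.ofL [(14, [], (.step 0 0 [] (.br 0 [[5,0,2,1,4,2,0,0],[4,0,4,2,4,1,2,0,0],[0,5,2,4,0,0,2,4,0]] [0,1,2] (Bt.ofL [(0, [], (.leaf 0))]))))]))))]))))]))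
theorem kC : Subgroup.centralizer {z | ∃ w ∈ [kz], wprod g w = z} = genW g kV :=
  M.cen (kaL M) _ [[0]] _ 1 5 kaZ kaT (by decide +kernel) (by decide +kernel)
theorem kM : Mdl (Subgroup.centralizer {wprod g kz}) 3 K21.Rf 21504 :=
  M.cenMdl (V := kV) K21.pr (kC M) ks (M.ge kV [⟨0, [[0],[4]], [0,0,0,1,0,1], 8⟩,
  ⟨1, [[0,5],[0,2,0]], [0,1,0,0,0,0,0,0], 16⟩,
  ⟨2, [[0,4]], [0,0,0,0,0,0], 7⟩,
  ⟨3, [[2,1,2,0,2],[4,0,2,1,4],[0,0,0,4,2,1,5,2,0]], [0,1,2], 6⟩,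
  ⟨4, [[1,2,0,4,0,0,2,4],[4,1,1,1,2,0,2,5]], [0,1], 4⟩] 5 (by decide +kernel))
theorem k2 : orderOf (wprod g kz) = 2 := M.ordN _ (by decide +kernel)

end CfsgH7.M24.Xk

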